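import Cfsg.Agent.H49.ThFiveDat

/-!
# S4879, the Thompson group and the prime 5 (helper243)

`th_five` : in `Th` there is an element `x` of order 5 whose centralizer has a normal 5-subgroup `Q` of order 125
containing its centralizer in `C(x)`, and `C(x)` has elements of order 2, 3, 4 and 6.
-/

set_option autoImplicit false
set_option linter.unusedSectionVars false

namespace Cfsg.Agent.H243.LB

open Cfsg Subgroup Cfsg.Agent.H49.ThFive

universe u

section local_part

variable {H : Type u} [Group H] [Finite H] {x y z s : H} {N : Subgroup H} (h : LC x y z s N)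
include h

/-- `N = P` -/
theorem N_eq (hH : Nat.card H = 3000) : PP x y z = N := by
  apply Subgroup.eq_of_le_of_card_ge h.PN
  have := h.card_H
  rw [h.toLoc.card_P]
  omega

/-- `C(P) ≤ P` -/
theorem cent_le (hH : Nat.card H = 3000) {g : H} (hgx : g * x = x * g) (hgy : g * y = y * g) : g ∈ PP x y z := by
  have hNn := h.core.normal
  have hN := N_eq h hH
  -- `g = p c`
  have h1 : g ∈ N ⊔ centralizer ({s} : Set H) := by
    rw [h.core.sup]
    exact mem_top _
  rw [mem_sup_of_normal_left] at h1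
  obtain ⟨p, hp, c, hc, hpc⟩ := h1
  rw [← hN] at hp
  have hcs : c * s = s * c := mem_centralizer_singleton_iff.1 hc
  -- `s g s⁻¹` commutes with `x` and `y`
  have hPn := h.P_normal
  have hss : s * s = 1 := h.toSit.ss
  have hs1 : s⁻¹ = s := inv_eq_of_mul_eq_one_left hss
  have key : ∀ w : H, s * w * s⁻¹ = w⁻¹ → g * w = w * g → (s * g * s⁻¹) * w = w * (s * g * s⁻¹) := by
    intro w hw hgw
    have e1 : s * w⁻¹ * s⁻¹ = w := by
      have : s * w⁻¹ * s⁻¹ = (s * w * s⁻¹)⁻¹ := by group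
      rw [this, hw, inv_inv]
    have e2 : g * w⁻¹ = w⁻¹ * g := ((show Commute g w from hgw).inv_right).eq
    calc s * g * s⁻¹ * w = s * g * s⁻¹ * (s * w⁻¹ * s⁻¹) := by rw [e1]
      _ = s * (g * w⁻¹) * s⁻¹ := by group
      _ = s * (w⁻¹ * g) * s⁻¹ := by rw [e2]
      _ = (s * w⁻¹ * s⁻¹) * (s * g * s⁻¹) := by group
      _ = _ := by rw [e1]
  obtain ⟨e, he⟩ : ∃ e : H, e = p * (s * p * s⁻¹)⁻¹ := ⟨_, rfl⟩
  have heg : e = g * (s * g * s⁻¹)⁻¹ := by
    have e1 : s * g * s⁻¹ = (s * p * s⁻¹) * c := by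
      rw [← hpc]
      calc s * (p * c) * s⁻¹ = (s * p * s⁻¹) * (s * c * s⁻¹) := by group
        _ = _ := by rw [← hcs, mul_inv_cancel_right]
    rw [e1, he, ← hpc]
    group
  have hex : ∀ w : H, s * w * s⁻¹ = w⁻¹ → g * w = w * g → Commute e w := by
    intro w hw hgw
    rw [heg]
    exact (show Commute g w from hgw).mul_left (show Commute _ w from key w hw hgw).inv_left
  -- `p ∈ ⟨e⟩ ⟨z⟩`
  have hp5 : p ^ 5 = 1 := h.exp hp
  have hpe : (e ^ 3)⁻¹ * p ∈ zpowers z := by
    have hZ := h.core.toSit.normalZ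
    rw [← QuotientGroup.eq_one_iff]
    obtain ⟨q, hq⟩ : ∃ q : H →* H ⧸ zpowers z, q = QuotientGroup.mk' (zpowers z) := ⟨_, rfl⟩
    have h1 : q (s * p * s⁻¹) = (q p)⁻¹ := by
      have h2 := h.core.quot.1 (q p) ⟨p, h.PN hp, by rw [hq]⟩
      rw [map_mul, map_mul, map_inv]
      rw [← hq] at h2
      exact h2
    have h2 : q p ^ 5 = 1 := by rw [← map_pow, hp5, map_one]
    have h3 : q ((e ^ 3)⁻¹ * p) = 1 := by
      rw [he, map_mul, map_inv, map_pow, map_mul, map_inv, h1, inv_inv]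
      have h4 : ((q p * q p) ^ 3)⁻¹ * q p = (q p ^ 5)⁻¹ := by
        rw [← pow_two, ← pow_mul]
        group
      rw [h4, h2, inv_one]
    rw [hq] at h3
    exact h3
  obtain ⟨k, hk⟩ := mem_zpowers_iff.1 hpe
  have hpw : ∀ w : H, s * w * s⁻¹ = w⁻¹ → g * w = w * g → Commute p w := by
    intro w hw hgw
    have e1 : p = e ^ 3 * z ^ k := by rw [hk]; group
    rw [e1]
    exact ((hex w hw hgw).pow_left 3).mul_left ((show Commute w z from h.toLoc.zcomm w).symm.zpow_left k)
  have hcw : ∀ w : H, s * w * s⁻¹ = w⁻¹ → g * w = w * g → c * w = w * c := by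
    intro w hw hgw
    have e1 : c = p⁻¹ * g := by rw [← hpc]; group
    rw [e1]
    exact (hpw w hw hgw).inv_left.mul_left hgw
  have hcz : c ∈ zpowers z := h.cent_P hcs (hcw x h.sx hgx) (hcw y h.sy hgy)
  rw [← hpc]
  exact mul_mem hp (h.toLoc.ZP hcz)

/-- the elements of order 2, 3, 4, 6 -/
theorem exists_elt : ∀ n ∈ ({2, 3, 4, 6} : Finset ℕ), ∃ t : H, orderOf t = n := by
  have h120 : Nat.card ↥(centralizer ({s} : Set H)) = 120 := h.orbit.2
  have hos : orderOf s = 2 := h.toSit.os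
  have hss : s * s = 1 := h.toSit.ss
  have h2F : Fact (Nat.Prime 2) := ⟨Nat.prime_two⟩
  have h3F : Fact (Nat.Prime 3) := ⟨Nat.prime_three⟩
  obtain ⟨t, ht⟩ := exists_prime_orderOf_dvd_card' (G := ↥(centralizer ({s} : Set H))) 3 (by rw [h120]; norm_num)
  have ht3 : orderOf (t : H) = 3 := by rw [Subgroup.orderOf_coe, ht]
  have hts : Commute (t : H) s := mem_centralizer_singleton_iff.1 t.2
  intro n hn
  simp only [Finset.mem_insert, Finset.mem_singleton] at hn
  rcases hn with rfl | rfl | rfl | rfl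
  · exact ⟨s, hos⟩
  · exact ⟨t, ht3⟩
  · -- a subgroup of order 4
    obtain ⟨K, hK⟩ := Sylow.exists_subgroup_card_pow_prime (G := ↥(centralizer ({s} : Set H))) 2 (n := 2)
      (by rw [h120]; norm_num)
    by_contra hne
    push Not at hne
    have h4 : ∀ u : K, (u : ↥(centralizer ({s} : Set H))) = 1 ∨ (((u : ↥(centralizer ({s} : Set H))) : H)) = s := by
      intro u
      have h5 : orderOf (((u : ↥(centralizer ({s} : Set H))) : H)) ∣ 2 ^ 2 := by
        rw [Subgroup.orderOf_coe, Subgroup.orderOf_coe, ← hK]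
        exact orderOf_dvd_natCard u
      obtain ⟨m, hm, hm'⟩ := (Nat.dvd_prime_pow Nat.prime_two).1 h5
      interval_cases m
      · left
        rw [pow_zero, orderOf_eq_one_iff] at hm'
        exact Subtype.ext hm'
      · right
        exact h.uniq _ (by rw [hm', pow_one])
          (mem_centralizer_singleton_iff.1 (u : ↥(centralizer ({s} : Set H))).2)
      · exact absurd hm' (hne _)
    have h6 : Nat.card K ≤ 2 := by
      have h7 : Nat.card K ≤ Nat.card ({1, s} : Set H) := by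
        refine Nat.card_le_card_of_injective (fun u : K => (⟨((u : ↥(centralizer ({s} : Set H))) : H), ?_⟩ : ({1, s} : Set H))) ?_
        · rcases h4 u with h5 | h5
          · left
            rw [h5]
            rfl
          · right
            exact h5
        · intro u v huv
          have h8 : ((u : ↥(centralizer ({s} : Set H))) : H) = ((v : ↥(centralizer ({s} : Set H))) : H) :=
            congrArg (fun w : ({1, s} : Set H) => (w : H)) huv
          exact Subtype.ext (Subtype.ext h8)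
      refine h7.trans ?_
      rw [Nat.card_coe_set_eq]
      exact (Set.ncard_insert_le 1 {s}).trans (by rw [Set.ncard_singleton])
    rw [hK] at h6
    norm_num at h6
  · refine ⟨s * t, ?_⟩
    rw [hts.symm.orderOf_mul_eq_mul_orderOf_of_coprime (by rw [hos, ht3]; norm_num), hos, ht3]

end local_part

section glob

variable {K : Type u} [Group K] [Finite K] {x y z a : K}

/-- **the centralizer of an element of order 5** -/
theorem dat_five (D : Dat x y z a) :
    orderOf z = 5 ∧ ∃ Q : Subgroup K, Nat.card Q = 125 ∧ IsPGroup 5 Q ∧ Q ≤ centralizer ({z} : Set K) ∧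
      (∀ g : K, g * z = z * g → ∀ u ∈ Q, g * u * g⁻¹ ∈ Q) ∧
      (∀ g : K, g * z = z * g → (∀ u ∈ Q, g * u = u * g) → g ∈ Q) ∧
      ∀ n ∈ ({2, 3, 4, 6} : Finset ℕ), ∃ s : K, s * z = z * s ∧ orderOf s = n := by
  obtain ⟨N, hN⟩ := D.loc.exists_LC
  refine ⟨D.oz, PP x y z, D.card_P, D.isP, fun u hu => mem_centralizer_singleton_iff.2 (D.PC hu),
    fun g hg u hu => D.norm hg hu, ?_, ?_⟩
  · intro g hg hgP
    have h1 := cent_le hN D.card_C (g := ⟨g, mem_centralizer_singleton_iff.2 hg⟩)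
      (Subtype.ext (hgP x D.xP)) (Subtype.ext (hgP y D.yP))
    rw [← D.map_PP]
    exact ⟨_, h1, rfl⟩
  · intro n hn
    obtain ⟨t, ht⟩ := exists_elt hN n hn
    exact ⟨t, mem_centralizer_singleton_iff.1 t.2, by rw [Subgroup.orderOf_coe, ht]⟩

end glob

/-- **the Thompson group and the prime 5** -/
theorem th_five {T : Type u} [Group T] [Finite T] (h : Spor.IsoTh T) :
    ∃ x : T, orderOf x = 5 ∧ ∃ Q : Subgroup T, Nat.card Q = 125 ∧ IsPGroup 5 Q ∧ Q ≤ centralizer ({x} : Set T) ∧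
      (∀ g : T, g * x = x * g → ∀ u ∈ Q, g * u * g⁻¹ ∈ Q) ∧
      (∀ g : T, g * x = x * g → (∀ u ∈ Q, g * u = u * g) → g ∈ Q) ∧
      ∀ n ∈ ({2, 3, 4, 6} : Finset ℕ), ∃ s : T, s * x = x * s ∧ orderOf s = n := by
  obtain ⟨e⟩ := h
  obtain ⟨hfin, x, y, z, a, D⟩ := exists_dat
  obtain ⟨hz, Q, hQ, hQp, hQC, hn, hc, hs⟩ := dat_five D
  let f : Spor.Th ≃* T := e.symm
  refine ⟨f z, ?_, Q.map f.toMonoidHom, ?_, hQp.map _, ?_, ?_, ?_, ?_⟩
  · rw [MulEquiv.orderOf_eq, hz]
  · rw [Subgroup.card_map_of_injective f.injective, hQ]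
  · rintro _ ⟨u, hu, rfl⟩
    have h1 := mem_centralizer_singleton_iff.1 (hQC hu)
    refine mem_centralizer_singleton_iff.2 ?_
    change f u * f z = f z * f u
    rw [← map_mul, h1, map_mul]
  · intro g hg
    obtain ⟨k, rfl⟩ := f.surjective g
    rintro _ ⟨u, hu, rfl⟩
    refine ⟨k * u * k⁻¹, hn k (f.injective (by rw [map_mul, hg, map_mul])) u hu, ?_⟩
    change f (k * u * k⁻¹) = f k * f u * (f k)⁻¹
    rw [map_mul, map_mul, map_inv]
  · intro g hg hgQ
    obtain ⟨k, rfl⟩ := f.surjective g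
    refine ⟨k, hc k (f.injective (by rw [map_mul, hg, map_mul])) (fun u hu => f.injective ?_), rfl⟩
    have := hgQ (f u) ⟨u, hu, rfl⟩
    rw [map_mul, this, map_mul]
  · intro n hnn
    obtain ⟨s, hsz, hsn⟩ := hs n hnn
    exact ⟨f s, by rw [← map_mul, hsz, map_mul], by rw [MulEquiv.orderOf_eq, hsn]⟩

end Cfsg.Agent.H243.LB
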